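import Mathlib
import Cfsg.Prelude.Def_Transfer
import Cfsg.Agent.Lib.Helper92.ESSub
import Cfsg.Agent.Lib.Helper92.ESEquiv

/-!
Abstract recognition of the shape `2^{1+4}_- : A_5` of the centraliser of an involution.
-/

set_option autoImplicit false

namespace Cfsg.Agent.Lib.Helper10.J3

theorem cent_struct {G : Type*} [Group G] [Finite G] (t : G) (R : Subgroup G)
    (hR : R ≤ Subgroup.centralizer {t}) (hRc : Nat.card R = 32) (hES : Cfsg.IsExtraspecial 2 R)
    (hn : ∀ g ∈ Subgroup.centralizer {t}, ∀ q ∈ R, g * q * g⁻¹ ∈ R)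
    (hE : ∀ E : Subgroup G, E ≤ R → (∀ a ∈ E, ∀ b ∈ E, a * b = b * a) → (∀ a ∈ E, a ^ 2 = 1) →
      Nat.card E ≤ 4)
    (θ : alternatingGroup (Fin 5) →* G) (hθ : ∀ a, θ a ∈ Subgroup.centralizer {t}) (hθ1 : ∃ a, θ a ≠ 1)
    (hX : Nat.card (Subgroup.centralizer ({t} : Set G)) ≤ 1920) :
    ∃ (Q : Subgroup ↥(Subgroup.centralizer ({t} : Set G))) (_ : Q.Normal), Cfsg.IsExtraspecial 2 Q ∧
      Nat.card Q = 32 ∧ (∀ E : Subgroup Q, Cfsg.IsElementaryAbelian 2 E → Nat.card E ≤ 2 ^ 2) ∧
      (∃ H : Subgroup ↥(Subgroup.centralizer ({t} : Set G)), Q.IsComplement' H) ∧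
      Nonempty (↥(Subgroup.centralizer ({t} : Set G)) ⧸ Q ≃* ↥(alternatingGroup (Fin 5))) := by
  set X := Subgroup.centralizer ({t} : Set G) with hXdef
  let Q : Subgroup X := R.subgroupOf X
  have hQn : Q.Normal := by
    constructor
    intro q hq g
    rw [Subgroup.mem_subgroupOf] at hq ⊢
    exact hn g g.2 q hq
  let e : Q ≃* R := Subgroup.subgroupOfEquivOfLe hR
  have hQc : Nat.card Q = 32 := by rw [Nat.card_congr e.toEquiv, hRc]
  let θ' : alternatingGroup (Fin 5) →* X := θ.codRestrict X hθ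
  let ψ : alternatingGroup (Fin 5) →* X ⧸ Q := (QuotientGroup.mk' Q).comp θ'
  have hA : Nat.card (alternatingGroup (Fin 5)) = 60 := by
    rw [nat_card_alternatingGroup]
    simp [Nat.factorial]
  have hs : IsSimpleGroup (alternatingGroup (Fin 5)) := alternatingGroup.isSimpleGroup_five
  have hθinj : Function.Injective θ' := by
    rw [← MonoidHom.ker_eq_bot_iff]
    rcases hs.eq_bot_or_eq_top_of_normal θ'.ker inferInstance with h | h
    · exact h
    · exfalso
      obtain ⟨a, ha⟩ := hθ1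
      apply ha
      have : a ∈ θ'.ker := by rw [h]; trivial
      rw [MonoidHom.mem_ker] at this
      exact congrArg Subtype.val this
  have hψinj : Function.Injective ψ := by
    rw [← MonoidHom.ker_eq_bot_iff]
    rcases hs.eq_bot_or_eq_top_of_normal ψ.ker inferInstance with h | h
    · exact h
    · exfalso
      have hall : ∀ a, θ' a ∈ Q := by
        intro a
        have : a ∈ ψ.ker := by rw [h]; trivial
        rw [MonoidHom.mem_ker] at this
        exact (QuotientGroup.eq_one_iff _).1 this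
      have := Nat.card_le_card_of_injective (fun a => (⟨θ' a, hall a⟩ : Q)) (by
        intro a b hab
        exact hθinj (congrArg Subtype.val hab))
      rw [hA, hQc] at this
      omega
  have hcard := Subgroup.card_eq_card_quotient_mul_card_subgroup Q
  have h60 : 60 ≤ Nat.card (X ⧸ Q) := by
    rw [← hA]
    exact Nat.card_le_card_of_injective ψ hψinj
  have hq60 : Nat.card (X ⧸ Q) = 60 := by
    rw [hQc] at hcard
    omega
  have hXc : Nat.card X = 1920 := by rw [hcard, hq60, hQc]
  have hψbij : Function.Bijective ψ := by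
    rw [Nat.bijective_iff_injective_and_card]
    exact ⟨hψinj, by rw [hA, hq60]⟩
  refine ⟨Q, hQn, Cfsg.Agent.Lib.Helper92.isExtraspecial_of_equiv e.symm hES, hQc, ?_, ?_,
    ⟨(MulEquiv.ofBijective ψ hψbij).symm⟩⟩
  · intro E hEl
    obtain ⟨hc, hp⟩ := hEl
    let f : Q →* G := X.subtype.comp Q.subtype
    have hf : Function.Injective f := fun a b h => Subtype.ext (Subtype.ext h)
    have h1 := hE (E.map f) (by
      rintro x ⟨a, _, rfl⟩
      exact a.2) (by
      rintro x ⟨a, ha, rfl⟩ y ⟨b, hb, rfl⟩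
      rw [← map_mul, ← map_mul]
      congr 1
      have := hc.is_comm.comm ⟨a, ha⟩ ⟨b, hb⟩
      exact congrArg Subtype.val this) (by
      rintro x ⟨a, ha, rfl⟩
      rw [← map_pow, hp a ha, map_one])
    rw [Subgroup.card_map_of_injective hf] at h1
    exact h1
  · refine ⟨θ'.range, Subgroup.isComplement'_of_card_mul_and_disjoint ?_ ?_⟩
    · rw [hQc, hXc, Nat.card_congr (MonoidHom.ofInjective hθinj).symm.toEquiv, hA]
    · rw [Subgroup.disjoint_def]
      rintro x hx ⟨a, rfl⟩
      have : a ∈ ψ.ker := by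
        rw [MonoidHom.mem_ker]
        exact (QuotientGroup.eq_one_iff _).2 hx
      rw [(MonoidHom.ker_eq_bot_iff ψ).2 hψinj, Subgroup.mem_bot] at this
      rw [this, map_one]

end Cfsg.Agent.Lib.Helper10.J3
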