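import Cfsg.Agent.Lib.Helper10.J3.CentA

/-!
A group of order 32 given by a multiplication table: extraspecial of minus type from facts on the table.
-/

set_option autoImplicit false

namespace Cfsg.Agent.Lib.Helper10.J3

theorem table_group {G : Type*} [Group G] [Finite G] (q : ℕ → G) (M : ℕ → ℕ → ℕ) (e z r : ℕ)
    (he : e < 32) (hz : z < 32) (hez : e ≠ z) (hr : r < 32) (hre : r ≠ e) (hrz : r ≠ z)
    (hinj : ∀ a < 32, ∀ b < 32, q a = q b → a = b)
    (hmul : ∀ a < 32, ∀ b < 32, q a * q b = q (M a b))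
    (h1 : q e = 1)
    (T0 : ∀ a < 32, ∀ b < 32, M a b < 32)
    (T1 : ∀ a < 32, M a (M a (M a a)) = e)
    (T2 : ∀ a < 32, ∀ b < 32, M a b = M b a ∨ M a b = M z (M b a))
    (T3 : ∀ c < 32, (∀ a < 32, M a c = M c a) → c = e ∨ c = z)
    (T4 : ∀ a < 32, M a z = M z a) (T4' : M z z = e)
    (T5 : ∀ a < 32, ∀ b < 32, M a a = e → M b b = e → M a b = M b a → a ≠ e → a ≠ z →
      b = e ∨ b = z ∨ b = a ∨ b = M z a) :
    ∃ R : Subgroup G, (∀ x, x ∈ R ↔ ∃ a < 32, x = q a) ∧ Nat.card R = 32 ∧ Cfsg.IsExtraspecial 2 R ∧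
      (∀ E : Subgroup G, E ≤ R → (∀ a ∈ E, ∀ b ∈ E, a * b = b * a) → (∀ a ∈ E, a ^ 2 = 1) →
        Nat.card E ≤ 4) := by
  let R : Subgroup G :=
    { carrier := {x | ∃ a < 32, x = q a}
      mul_mem' := by
        rintro x y ⟨a, ha, rfl⟩ ⟨b, hb, rfl⟩
        exact ⟨M a b, T0 a ha b hb, hmul a ha b hb⟩
      one_mem' := ⟨e, he, h1.symm⟩
      inv_mem' := by
        rintro x ⟨a, ha, rfl⟩
        refine ⟨M a (M a a), T0 a ha _ (T0 a ha a ha), ?_⟩
        apply inv_eq_of_mul_eq_one_right
        rw [hmul a ha _ (T0 a ha _ (T0 a ha a ha)), T1 a ha, h1] }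
  have hmem : ∀ x, x ∈ R ↔ ∃ a < 32, x = q a := fun x => Iff.rfl
  have hcard : Nat.card R = 32 := by
    have hb : Function.Bijective (fun i : Fin 32 => (⟨q i, i, i.2, rfl⟩ : R)) := by
      constructor
      · intro i j hij
        exact Fin.ext (hinj i i.2 j j.2 (congrArg Subtype.val hij))
      · rintro ⟨x, a, ha, rfl⟩
        exact ⟨⟨a, ha⟩, rfl⟩
    rw [← Nat.card_congr (Equiv.ofBijective _ hb)]
    simp
  have hz1 : q z ≠ 1 := by
    intro h
    rw [← h1] at h
    exact hez (hinj z hz e he h).symm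
  refine ⟨R, hmem, hcard, ?_, ?_⟩
  · apply Cfsg.Agent.Lib.Helper92.isExtraspecial_of_sub (z := q z)
    · exact ⟨z, hz, rfl⟩
    · exact hz1
    · rw [hmul z hz z hz, T4', h1]
    · rintro x ⟨a, ha, rfl⟩ y ⟨b, hb, rfl⟩
      rcases T2 a ha b hb with h | h
      · left
        rw [hmul a ha b hb, h, ← hmul b hb a ha]
        group
      · right
        rw [hmul a ha b hb, h, ← hmul z hz _ (T0 b hb a ha), ← hmul b hb a ha]
        group
    · rintro x ⟨a, ha, rfl⟩
      show q a * q z = q z * q a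
      rw [hmul a ha z hz, hmul z hz a ha, T4 a ha]
    · rintro x ⟨c, hc, rfl⟩ hall
      rcases T3 c hc (by
        intro a ha
        apply hinj _ (T0 a ha c hc) _ (T0 c hc a ha)
        rw [← hmul a ha c hc, ← hmul c hc a ha]
        exact hall (q a) ⟨a, ha, rfl⟩) with h | h
      · left; rw [h, h1]
      · right; rw [h]
    · refine ⟨q r, ⟨r, hr, rfl⟩, ?_, ?_⟩
      · intro h
        rw [← h1] at h
        exact hre (hinj r hr e he h)
      · intro h
        exact hrz (hinj r hr z hz h)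
    · exact IsPGroup.of_card (n := 5) (by rw [hcard]; norm_num)
  · intro E hER hc hp
    classical
    have key : ∃ a : G, ∀ b ∈ E, b ∈ ({1, q z, a, q z * a} : Finset G) := by
      by_cases hall : ∀ x ∈ E, x = 1 ∨ x = q z
      · refine ⟨1, fun b hb => ?_⟩
        rcases hall b hb with h | h
        · simp [h]
        · simp [h]
      · push Not at hall
        obtain ⟨x, hx, hx1, hxz⟩ := hall
        refine ⟨x, fun y hy => ?_⟩
        obtain ⟨a, ha, rfl⟩ := hER hx
        obtain ⟨b, hb, rfl⟩ := hER hy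
        have e1 : M a a = e := by
          apply hinj _ (T0 a ha a ha) _ he
          rw [← hmul a ha a ha, h1, ← pow_two, hp _ hx]
        have e2 : M b b = e := by
          apply hinj _ (T0 b hb b hb) _ he
          rw [← hmul b hb b hb, h1, ← pow_two, hp _ hy]
        have e3 : M a b = M b a := by
          apply hinj _ (T0 a ha b hb) _ (T0 b hb a ha)
          rw [← hmul a ha b hb, ← hmul b hb a ha, hc _ hx _ hy]
        rcases T5 a ha b hb e1 e2 e3 (by rintro rfl; exact hx1 h1) (by rintro rfl; exact hxz rfl)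
          with h | h | h | h
        · simp [h, h1]
        · simp [h]
        · simp [h]
        · rw [h, ← hmul z hz a ha]
          simp
    obtain ⟨a, ha⟩ := key
    have h3 : Nat.card E ≤ ({1, q z, a, q z * a} : Finset G).card := by
      rw [← Nat.card_eq_finsetCard]
      exact Nat.card_le_card_of_injective (fun b : E => (⟨b.1, ha b.1 b.2⟩ : ({1, q z, a, q z * a} : Finset G)))
        (fun b c h => Subtype.ext (by simpa using h))
    exact h3.trans Finset.card_le_four

end Cfsg.Agent.Lib.Helper10.J3
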