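import Cfsg.Agent.Lib.Helper10.J3.QDefs

set_option autoImplicit false
set_option maxRecDepth 100000

namespace Cfsg.Agent.Lib.Helper10.J3

theorem vqm : allB 10 0 chkQM = true := by decide +kernel
theorem va5 : chkA5 = true := by decide +kernel
theorem qI_tid : qI tid = jidC := by decide +kernel
theorem qT0 : ∀ a < 32, ∀ b < 32, qM a b < 32 := by decide +kernel
theorem qT1 : ∀ a < 32, qM a (qM a (qM a a)) = tid := by decide +kernel
theorem qT2 : ∀ a < 32, ∀ b < 32, qM a b = qM b a ∨ qM a b = qM tz (qM b a) := by decide +kernel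
theorem qT3 : ∀ c < 32, (∀ a < 32, qM a c = qM c a) → c = tid ∨ c = tz := by decide +kernel
theorem qT4 : ∀ a < 32, qM a tz = qM tz a := by decide +kernel
theorem qT4' : qM tz tz = tid := by decide +kernel
set_option synthInstance.maxSize 2000 in
set_option synthInstance.maxHeartbeats 400000 in
theorem qT5' : ∀ a < 32, ∀ b < 32, (qM a a = tid ∧ qM b b = tid ∧ qM a b = qM b a ∧ a ≠ tid ∧ a ≠ tz) →
    (b = tid ∨ b = tz ∨ b = a ∨ b = qM tz a) := by decide +kernel
theorem qT5 : ∀ a < 32, ∀ b < 32, qM a a = tid → qM b b = tid → qM a b = qM b a → a ≠ tid → a ≠ tz →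
    b = tid ∨ b = tz ∨ b = a ∨ b = qM tz a :=
  fun a ha b hb h1 h2 h3 h4 h5 => qT5' a ha b hb ⟨h1, h2, h3, h4, h5⟩
theorem idx_split : ∀ a < 32, ∀ b < 32, Nat.shiftRight (Nat.add (Nat.mul 32 a) b) 5 = a ∧
    Nat.land (Nat.add (Nat.mul 32 a) b) 31 = b := by decide +kernel
theorem qI_step : ∀ t < 31, qI t < qI (t + 1) := by decide +kernel

end Cfsg.Agent.Lib.Helper10.J3
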